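import Cfsg.Agent.H893.SR.TriD4U
import Cfsg.Agent.ChevalleyStructure.D4NConj

/-!
# `³D₄(q)`, `q` even: elements of `U` commuting with an element of the cell of the long simple reflection (helper81)

* `fix_coord` : the coordinates modulo `V`.
-/

set_option autoImplicit false

namespace Cfsg.Agent.H81.TD

open Cfsg.Lie
open Cfsg.Agent.H893.SR.Tri
open Cfsg.Agent.ChevalleyStructure
open Cfsg.Agent.ChevalleyStructure.D4Comm Cfsg.Agent.ChevalleyStructure.D4NCheck
open Cfsg.Agent.ChevalleyStructure.D4Pos Cfsg.Agent.ChevalleyStructure.TwistedU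
open Cfsg.Agent.ChevalleyStructure.D4U
open Cfsg.Agent.ChevalleyStructure.D4NConj (nR nG nG_conj eta_cases)

variable {K : Type*} [Field K] {φ : K →+* K}

theorem na_xG (h2 : ∀ x : K, x + x = 0) {s s' : ℕ} (hs : s < 24) (h : rfl' 1 s = s') (t : K) :
    na K * xG s t * (na K)⁻¹ = xG s' t := by
  have h1 := nG_conj (F := K) (i := 1) (by norm_num) hs t
  rw [h] at h1
  unfold na
  rw [h1]
  rcases eta_cases (i := 1) (by norm_num) hs with e | e
  · rw [e]; simp
  · rw [e]; simp [neg2 h2]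

theorem na_B (h2 : ∀ x : K, x + x = 0) (b : K) : na K * B φ b * (na K)⁻¹ = C φ b := by
  have e : na K * B φ b * (na K)⁻¹ = (na K * xG 18 b * (na K)⁻¹) * (na K * xG 13 (φ b) * (na K)⁻¹) *
      (na K * xG 12 (φ (φ b)) * (na K)⁻¹) := by
    unfold B
    group
  rw [e, na_xG h2 (s := 18) (s' := 19) (by norm_num) (by decide), na_xG h2 (s := 13) (s' := 16) (by norm_num) (by decide),
    na_xG h2 (s := 12) (s' := 15) (by norm_num) (by decide)]
  rfl

theorem na_C (h2 : ∀ x : K, x + x = 0) (b : K) : na K * C φ b * (na K)⁻¹ = B φ b := by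
  have e : na K * C φ b * (na K)⁻¹ = (na K * xG 19 b * (na K)⁻¹) * (na K * xG 16 (φ b) * (na K)⁻¹) *
      (na K * xG 15 (φ (φ b)) * (na K)⁻¹) := by
    unfold C
    group
  rw [e, na_xG h2 (s := 19) (s' := 18) (by norm_num) (by decide), na_xG h2 (s := 16) (s' := 13) (by norm_num) (by decide),
    na_xG h2 (s := 15) (s' := 12) (by norm_num) (by decide)]
  rfl

theorem na_inv (h2 : ∀ x : K, x + x = 0) : (na K)⁻¹ = na K := by
  unfold na
  rw [D4NConj.nG_def, D4NConj.nR_inv, neg2 h2]

theorem norm_na (h2 : ∀ x : K, x + x = 0) : na K ∈ Subgroup.normalizer (V K : Set (GL chevD4.Idx K)) := by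
  rw [Subgroup.mem_normalizer_iff]
  intro g
  refine ⟨fun hg => na_RS K (by decide +kernel) hg, fun hg => ?_⟩
  have h1 := na_RS K (l := LV) (l' := LV) (by decide +kernel) hg
  have hh : na K * na K = 1 := by
    have := mul_inv_cancel (na K)
    rwa [na_inv h2] at this
  have e : na K * (na K * g * (na K)⁻¹) * (na K)⁻¹ = g := by
    calc na K * (na K * g * (na K)⁻¹) * (na K)⁻¹ = (na K * na K) * g * (na K * na K)⁻¹ := by group
      _ = g := by rw [hh]; group
  rwa [e] at h1

/-- the order -/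
def ordB : List ℕ := [18, 13, 12, 19, 16, 15, 21, 17, 20, 22, 23]

theorem ordB_uniq : uniqB ordB = true := by decide +kernel

/-- the coordinates modulo `V` -/
theorem coord_BC {b c b' c' : K} (h : Eqv (B φ b * C φ c) (B φ b' * C φ c')) : b = b' ∧ c = c' := by
  unfold Eqv at h
  obtain ⟨t, ht⟩ := exists_lprod xG_add (l := LV) (by decide) (good_of_goodB LV (by decide +kernel)) h
  have h1 : B φ b' * C φ c' = B φ b * C φ c * lprod xG LV t := by rw [← ht]; group
  obtain ⟨t1, e1⟩ : ∃ t1 : ℕ → K, t1 = fun r => match r with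
    | 18 => b' | 13 => φ b' | 12 => φ (φ b') | 19 => c' | 16 => φ c' | 15 => φ (φ c') | _ => 0 := ⟨_, rfl⟩
  obtain ⟨t2, e2⟩ : ∃ t2 : ℕ → K, t2 = fun r => match r with
    | 18 => b | 13 => φ b | 12 => φ (φ b) | 19 => c | 16 => φ c | 15 => φ (φ c) | 21 => t 21 | 17 => t 17
    | 20 => t 20 | 22 => t 22 | 23 => t 23 | _ => 0 := ⟨_, rfl⟩
  have h2 : lprod xG ordB t1 = lprod xG ordB t2 := by
    unfold ordB
    simp only [lprod_cons, lprod_nil, mul_one, e1, e2, xG_zero]
    have h3 := h1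
    unfold B C LV at h3
    simp only [lprod_cons, lprod_nil, mul_one, mul_assoc] at h3
    exact h3
  have h4 := lprod_inj ordB ordB_uniq h2
  have h18 := h4 18 (by decide)
  have h19 := h4 19 (by decide)
  rw [e1, e2] at h18 h19
  exact ⟨h18.symm, h19.symm⟩

/-- **The coordinates of the elements commuting with an element of the cell.** -/
theorem fix_coord (h2 : ∀ x : K, x + x = 0) {α δ : K} (hα : φ α = α) (hδ : φ δ = δ)
    {b c d e f b' c' d' e' f' : K} (h : (A α * na K * A δ) * (B φ b' * C φ c' * D φ d' * E e' * Z f') =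
      (B φ b * C φ c * D φ d * E e * Z f) * (A α * na K * A δ)) : b = c' + δ * b' ∧ c = b' + α * b := by
  have hAB : ∀ (a x : K), φ a = a → Eqv (A a * B φ x) (B φ x * A a * C φ (a * x)) := by
    intro a x ha
    have h1 := (eqv_BA h2 ha x).symm.mulR (norm_C (φ := φ) (a * x))
    have e1 : A a * B φ x * C φ (a * x) * C φ (a * x) = A a * B φ x := by
      rw [mul_assoc, C_sq h2, mul_one]
    rwa [e1] at h1
  obtain ⟨g, hg⟩ : ∃ g, g = A α * na K * A δ := ⟨_, rfl⟩
  have hgn : g ∈ Subgroup.normalizer (V K : Set (GL chevD4.Idx K)) := by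
    rw [hg]
    exact mul_mem (mul_mem (norm_A _) (norm_na h2)) (norm_A _)
  obtain ⟨b1, hb1⟩ : ∃ b1, b1 = c' + δ * b' := ⟨_, rfl⟩
  -- the left-hand side
  have s1 : Eqv ((A α * na K) * (A δ * B φ b') * C φ c') ((A α * na K) * (B φ b' * A δ * C φ (δ * b')) * C φ c') :=
    (hAB δ b' hδ).mid _ (norm_C _)
  have q1 : (A α * na K) * (B φ b' * A δ * C φ (δ * b')) * C φ c' = A α * (C φ b' * B φ b1) * (na K * A δ) := by
    have c1 : A δ * (C φ (δ * b') * C φ c') = C φ b1 * A δ := by
      rw [← C_add, (AC δ _).eq, hb1, add_comm]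
    have c2 : na K * B φ b' = C φ b' * na K := by rw [← na_B h2 (φ := φ) b']; group
    have c3 : na K * C φ b1 = B φ b1 * na K := by rw [← na_C h2 (φ := φ) b1]; group
    calc (A α * na K) * (B φ b' * A δ * C φ (δ * b')) * C φ c'
        = A α * (na K * B φ b') * (A δ * (C φ (δ * b') * C φ c')) := by group
      _ = A α * (C φ b' * na K) * (C φ b1 * A δ) := by rw [c1, c2]
      _ = A α * C φ b' * (na K * C φ b1) * A δ := by group
      _ = _ := by rw [c3]; group
  have q2 : A α * (C φ b' * B φ b1) * (na K * A δ) = C φ b' * (A α * B φ b1) * (na K * A δ) := by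
    rw [← mul_assoc (A α), (AC α _).eq]
    group
  have hn2 : na K * A δ ∈ Subgroup.normalizer (V K : Set (GL chevD4.Idx K)) := mul_mem (norm_na h2) (norm_A _)
  have s2 : Eqv (C φ b' * (A α * B φ b1) * (na K * A δ)) (C φ b' * (B φ b1 * A α * C φ (α * b1)) * (na K * A δ)) :=
    (hAB α b1 hα).mid _ hn2
  have q3 : C φ b' * (B φ b1 * A α * C φ (α * b1)) * (na K * A δ) =
      1 * (C φ b' * B φ b1) * (C φ (α * b1) * (A α * (na K * A δ))) := by
    have := (AC (φ := φ) α (α * b1)).eq
    calc C φ b' * (B φ b1 * A α * C φ (α * b1)) * (na K * A δ)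
        = C φ b' * B φ b1 * (A α * C φ (α * b1)) * (na K * A δ) := by group
      _ = _ := by rw [this]; group
  have s3 : Eqv (1 * (C φ b' * B φ b1) * (C φ (α * b1) * (A α * (na K * A δ))))
      (1 * (B φ b1 * C φ b') * (C φ (α * b1) * (A α * (na K * A δ)))) :=
    (CV.symm (cvCB b1 b')).mid _ (mul_mem (norm_C _) (mul_mem (norm_A _) hn2))
  have q4 : 1 * (B φ b1 * C φ b') * (C φ (α * b1) * (A α * (na K * A δ))) = B φ b1 * C φ (b' + α * b1) * g := by
    rw [C_add, hg]
    group
  have k1 : Eqv (g * (B φ b' * C φ c')) (B φ b1 * C φ (b' + α * b1) * g) := by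
    have q0 : g * (B φ b' * C φ c') = (A α * na K) * (A δ * B φ b') * C φ c' := by rw [hg]; group
    rw [q0]
    rw [q1, q2] at s1
    rw [q3] at s2
    rw [q4] at s3
    exact (s1.trans s2).trans s3
  -- the right-hand side
  have k2 : Eqv (g * (B φ b' * C φ c')) (B φ b * C φ c * g) := by
    have h3 : Eqv (g * (B φ b' * C φ c')) (g * (B φ b' * C φ c' * D φ d' * E e' * Z f')) := by
      unfold Eqv
      have q : (g * (B φ b' * C φ c'))⁻¹ * (g * (B φ b' * C φ c' * D φ d' * E e' * Z f')) = D φ d' * E e' * Z f' := by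
        group
      rw [q]
      exact DEZ_mem_V _ _ _
    have h4 : Eqv (B φ b * C φ c * g) ((B φ b * C φ c * D φ d * E e * Z f) * g) := by
      unfold Eqv
      have q : (B φ b * C φ c * g)⁻¹ * ((B φ b * C φ c * D φ d * E e * Z f) * g) =
          g⁻¹ * (D φ d * E e * Z f) * (g⁻¹)⁻¹ := by
        group
      rw [q]
      exact (Subgroup.mem_normalizer_iff.1 (inv_mem hgn) _).1 (DEZ_mem_V _ _ _)
    rw [← hg] at h
    rw [h] at h3
    exact h3.trans h4.symm
  have k3 := (k1.symm.trans k2).mulR (inv_mem hgn)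
  rw [mul_inv_cancel_right, mul_inv_cancel_right] at k3
  obtain ⟨k4, k5⟩ := coord_BC k3
  refine ⟨by rw [← k4, hb1], ?_⟩
  rw [← k5, k4]

end Cfsg.Agent.H81.TD
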