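import Mathlib

/-!
# A subgroup with two suborbits (helper81)

* `index_of_dc` : `C` has index 1 or `1 + |Q|` if a 2-subgroup `Q ≤ C` with one involution is transitive on the cosets
  different from `C`;
* `no_prime` : elements of prime order `l ≥ 5` are trivial if `|F|` divides `211341312` and `C` has none.
-/

set_option autoImplicit false

namespace Cfsg.Agent.H81.TD

variable {F : Type*} [Group F] [Finite F]

omit [Finite F] in
/-- a nontrivial 2-element has the involution as a power -/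
theorem exists_pow_eq {Q : Subgroup F} (hQ2 : IsPGroup 2 Q) {u₀ : F} (hu : ∀ z ∈ Q, z * z = 1 → z ≠ 1 → z = u₀)
    {w : F} (hw : w ∈ Q) (hw1 : w ≠ 1) : ∃ n : ℕ, w ^ n = u₀ := by
  obtain ⟨k, hk⟩ := (IsPGroup.iff_orderOf.1 hQ2) ⟨w, hw⟩
  rw [Subgroup.orderOf_mk] at hk
  have hk0 : k ≠ 0 := by
    rintro rfl
    rw [pow_zero, orderOf_eq_one_iff] at hk
    exact hw1 hk
  obtain ⟨m, rfl⟩ := Nat.exists_eq_succ_of_ne_zero hk0
  refine ⟨2 ^ m, hu _ (pow_mem hw _) ?_ ?_⟩
  · rw [← pow_add, ← two_mul, ← pow_succ', ← Nat.succ_eq_add_one, ← hk, pow_orderOf_eq_one]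
  · intro h
    have h1 := orderOf_dvd_of_pow_eq_one h
    rw [hk] at h1
    have h2 := Nat.le_of_dvd (by positivity) h1
    rw [Nat.succ_eq_add_one, pow_succ] at h2
    have h3 : 0 < 2 ^ m := by positivity
    omega

theorem index_of_dc (C Q : Subgroup F) (hQC : Q ≤ C) (hQ2 : IsPGroup 2 Q) {u₀ : F}
    (hu : ∀ z ∈ Q, z * z = 1 → z ≠ 1 → z = u₀) (hC : ∀ h, h⁻¹ * u₀ * h ∈ C → h ∈ C)
    (hdc : ∀ g h, g ∉ C → h ∉ C → ∃ z ∈ Q, (z * h)⁻¹ * g ∈ C) : C.index = 1 ∨ C.index = 1 + Nat.card Q := by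
  classical
  by_cases hall : ∀ h, h ∈ C
  · left
    rw [Subgroup.index_eq_one, eq_top_iff]
    exact fun h _ => hall h
  right
  push Not at hall
  obtain ⟨h, hh⟩ := hall
  let f : Option Q → F ⧸ C := fun o => match o with
    | none => (QuotientGroup.mk (1 : F) : F ⧸ C)
    | some z => (QuotientGroup.mk ((z : F) * h) : F ⧸ C)
  have hno : ∀ z : Q, (QuotientGroup.mk (1 : F) : F ⧸ C) ≠ QuotientGroup.mk ((z : F) * h) := by
    intro z e
    rw [QuotientGroup.eq, inv_one, one_mul] at e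
    exact hh ((C.mul_mem_cancel_left (hQC z.2)).1 e)
  have hf : Function.Bijective f := by
    constructor
    · rintro (_ | z) (_ | z') e
      · rfl
      · exact absurd e (hno z')
      · exact absurd e.symm (hno z)
      · have e' : (QuotientGroup.mk ((z : F) * h) : F ⧸ C) = QuotientGroup.mk ((z' : F) * h) := e
        rw [QuotientGroup.eq] at e'
        by_contra hne
        have hw1 : (z : F)⁻¹ * z' ≠ 1 := by
          intro h1
          apply hne
          rw [inv_mul_eq_one] at h1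
          rw [Subtype.ext h1]
        obtain ⟨n, hn⟩ := exists_pow_eq hQ2 hu (Q.mul_mem (Q.inv_mem z.2) z'.2) hw1
        apply hh
        apply hC
        have e2 : h⁻¹ * u₀ * h = (((z : F) * h)⁻¹ * ((z' : F) * h)) ^ n := by
          have e3 : ((z : F) * h)⁻¹ * ((z' : F) * h) = h⁻¹ * ((z : F)⁻¹ * z') * h := by group
          have e4 : h⁻¹ * ((z : F)⁻¹ * z') * h = h⁻¹ * ((z : F)⁻¹ * z') * (h⁻¹)⁻¹ := by rw [inv_inv]
          rw [e3, e4, conj_pow, hn, inv_inv]
        rw [e2]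
        exact C.pow_mem e' n
    · intro y
      obtain ⟨g, rfl⟩ := QuotientGroup.mk_surjective y
      by_cases hg : g ∈ C
      · refine ⟨none, ?_⟩
        show (QuotientGroup.mk (1 : F) : F ⧸ C) = QuotientGroup.mk g
        rw [QuotientGroup.eq, inv_one, one_mul]
        exact hg
      · obtain ⟨z, hz, e⟩ := hdc g h hg hh
        refine ⟨some ⟨z, hz⟩, ?_⟩
        show (QuotientGroup.mk (z * h) : F ⧸ C) = QuotientGroup.mk g
        rw [QuotientGroup.eq]
        exact e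
  have h1 := Nat.card_congr (Equiv.ofBijective f hf)
  rw [Finite.card_option] at h1
  show Nat.card (F ⧸ C) = 1 + Nat.card Q
  rw [← h1, add_comm]

theorem dvd_index {C : Subgroup F} {l : ℕ} (hl : l.Prime) (hodd : ∀ c ∈ C, c ^ l = 1 → c = 1) {z : F}
    (hz : z ^ l = 1) (hz1 : z ≠ 1) : l ∣ C.index := by
  classical
  have : Fact l.Prime := ⟨hl⟩
  have ho : orderOf z = l := orderOf_eq_prime hz hz1
  have hp : IsPGroup l (Subgroup.zpowers z) := IsPGroup.of_card (n := 1) (by rw [Nat.card_zpowers, ho, pow_one])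
  have hfin : Finite (F ⧸ C) := inferInstance
  have h1 := hp.card_modEq_card_fixedPoints (F ⧸ C)
  have h2 : Nat.card (MulAction.fixedPoints (Subgroup.zpowers z) (F ⧸ C)) = 0 := by
    rw [Nat.card_eq_zero]
    left
    refine ⟨?_⟩
    rintro ⟨y, hy⟩
    obtain ⟨h, rfl⟩ := QuotientGroup.mk_surjective y
    have h3 := hy ⟨z, Subgroup.mem_zpowers z⟩
    have h4 : (QuotientGroup.mk (z * h) : F ⧸ C) = QuotientGroup.mk h := h3
    rw [eq_comm, QuotientGroup.eq] at h4
    have h5 : (h⁻¹ * (z * h)) ^ l = 1 := by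
      have e : h⁻¹ * (z * h) = h⁻¹ * z * (h⁻¹)⁻¹ := by group
      rw [e, conj_pow, hz, mul_one, mul_inv_cancel]
    have h6 := hodd _ h4 h5
    apply hz1
    have h7 : z = h * (h⁻¹ * (z * h)) * h⁻¹ := by group
    rw [h7, h6]
    group
  rw [h2] at h1
  exact (Nat.modEq_zero_iff_dvd).1 h1

theorem no_prime (C Q : Subgroup F) (hQC : Q ≤ C) (hQ2 : IsPGroup 2 Q) {u₀ : F}
    (hu : ∀ z ∈ Q, z * z = 1 → z ≠ 1 → z = u₀) (hC : ∀ h, h⁻¹ * u₀ * h ∈ C → h ∈ C)
    (hdc : ∀ g h, g ∉ C → h ∉ C → ∃ z ∈ Q, (z * h)⁻¹ * g ∈ C) (hF : Nat.card F ∣ 211341312) {l : ℕ} (hl : l.Prime)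
    (h5 : 5 ≤ l) (hodd : ∀ c ∈ C, c ^ l = 1 → c = 1) {z : F} (hz : z ^ l = 1) : z = 1 := by
  by_contra hz1
  have h1 := dvd_index hl hodd hz hz1
  rcases index_of_dc C Q hQC hQ2 hu hC hdc with h2 | h2
  · rw [h2, Nat.dvd_one] at h1
    exact hl.one_lt.ne' h1
  · have : Fact (Nat.Prime 2) := ⟨Nat.prime_two⟩
    obtain ⟨k, hk⟩ := IsPGroup.iff_card.1 hQ2
    have h3 : C.index ∣ 211341312 := C.index_dvd_card.trans hF
    have h4 : 2 ^ k ∣ 211341312 := by
      rw [← hk]
      exact Q.card_subgroup_dvd_card.trans hF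
    rw [h2, hk] at h3 h1
    have hk12 : k ≤ 12 := by
      by_contra hk'
      have h6 : 2 ^ 13 ∣ 211341312 := (pow_dvd_pow 2 (by omega)).trans h4
      norm_num at h6
    have h7 : k = 0 ∨ k = 1 ∨ k = 3 := by
      interval_cases k <;> omega
    rcases h7 with rfl | rfl | rfl
    · have := Nat.le_of_dvd (by norm_num) h1
      norm_num at this
      omega
    · have := Nat.le_of_dvd (by norm_num) h1
      norm_num at this
      omega
    · have h8 : l ∣ 3 ^ 2 := by norm_num at h1 ⊢; exact h1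
      have h9 := (Nat.prime_dvd_prime_iff_eq hl Nat.prime_three).1 (hl.dvd_of_dvd_pow h8)
      omega

end Cfsg.Agent.H81.TD
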